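import Cfsg.Agent.E7P.Alm.Mod
import Cfsg.Agent.R2.H28.SL2.Both

/-!
# S5932, task SPLIT: modules generated by a highest weight vector (helper37)

* `Hw c E` : `E` is fixed by `U` and has weight `c`; `xm E m = D_m (w E)`; `w_x` : the action of `w`;
* `Mr c E` : the radical of the module generated by `E`; `Mr_inv`, `Mr_orth`;
* `soc` : simple submodules from highest weight vectors; `cf_step`, `cf_mono`, `mem_cf_sup`.
-/

set_option autoImplicit false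
set_option linter.unusedSectionVars false

namespace Cfsg.Agent.E7P.Sp

open Matrix Cfsg.Agent.H943.SL2Rel Cfsg.Agent.H943.SL2Mod Cfsg.Agent.H943.RepAdd Cfsg.Agent.R2.H28.SL2

universe u v w

section General
variable {k : Type u} [Field k] {G : Type w} [Group G] {I : Type*} (S : Sys.{u, v, w} k G I)
  {V : Type v} [AddCommGroup V] [Module k V] [FiniteDimensional k V] {ρ : Representation k G V}

omit [FiniteDimensional k V] in
theorem map_inv' {X W : Submodule k V} (hX : ∀ g, ∀ x ∈ X, ρ g x ∈ X) (hW : ∀ g, ∀ x ∈ W, ρ g x ∈ W) :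
    ∀ g, ∀ x ∈ W.map X.mkQ, quotRep ρ X hX g x ∈ W.map X.mkQ := by
  rintro g _ ⟨x, hx, rfl⟩
  exact ⟨_, hW g x hx, rfl⟩

theorem cf_step {X W : Submodule k V} (hX : ∀ g, ∀ x ∈ X, ρ g x ∈ X) (hW : ∀ g, ∀ x ∈ W, ρ g x ∈ W) (h : X ≤ W) :
    cf S (subRep ρ W hW) = cf S (subRep ρ X hX) + cf S (subRep (quotRep ρ X hX) _ (map_inv' hX hW)) := by
  obtain ⟨X', hX', hW', h1, h2, h3, h4⟩ := step ρ W hW (X.comap W.subtype) fun g x hx => hX g x hx
  obtain rfl : X' = X := le_antisymm (fun x hx => (h2 ⟨x, h1 hx⟩).1 hx) fun x hx => (h2 ⟨x, h hx⟩).2 hx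
  rw [cf_add S _ (X'.comap W.subtype) fun g x hx => hX g x hx, cf_iso S h3, cf_iso S h4]

theorem cf_mono {X W : Submodule k V} (hX : ∀ g, ∀ x ∈ X, ρ g x ∈ X) (hW : ∀ g, ∀ x ∈ W, ρ g x ∈ W) (h : X ≤ W) :
    cf S (subRep ρ X hX) ≤ cf S (subRep ρ W hW) := by
  rw [cf_step S hX hW h]
  exact Multiset.le_add_right _ _

omit [FiniteDimensional k V] in
theorem sup_inv {X W : Submodule k V} (hX : ∀ g, ∀ x ∈ X, ρ g x ∈ X) (hW : ∀ g, ∀ x ∈ W, ρ g x ∈ W) :
    ∀ g, ∀ x ∈ X ⊔ W, ρ g x ∈ X ⊔ W := by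
  intro g x hx
  obtain ⟨y, hy, z, hz, rfl⟩ := Submodule.mem_sup.1 hx
  rw [map_add]
  exact Submodule.add_mem_sup (hX g y hy) (hW g z hz)

theorem cf_congr {X W : Submodule k V} (hX : ∀ g, ∀ x ∈ X, ρ g x ∈ X) (hW : ∀ g, ∀ x ∈ W, ρ g x ∈ W) (h : X = W) :
    cf S (subRep ρ X hX) = cf S (subRep ρ W hW) := by
  subst h
  rfl

theorem mem_cf_sup {X W : Submodule k V} (hX : ∀ g, ∀ x ∈ X, ρ g x ∈ X) (hW : ∀ g, ∀ x ∈ W, ρ g x ∈ W) {b : I}
    (hb : b ∈ cf S (subRep ρ _ (sup_inv hX hW))) : b ∈ cf S (subRep ρ X hX) ∨ b ∈ cf S (subRep ρ W hW) := by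
  rw [cf_step S hX (sup_inv hX hW) le_sup_left, Multiset.mem_add] at hb
  refine hb.imp_right fun hb => ?_
  obtain ⟨hk, hr, h1, -⟩ := cf_exact S (subRep ρ W hW) (quotRep ρ X hX) (X.mkQ ∘ₗ W.subtype) fun g x => rfl
  rw [h1, Multiset.mem_add]
  right
  rwa [cf_congr S _ hr] at hb
  rw [LinearMap.range_comp, Submodule.range_subtype, Submodule.map_sup, Submodule.mkQ_map_self, bot_sup_eq]

end General

variable {k : Type u} [Field k] [DecidableEq k] {F : Type w} [Field F] [Fintype F] [DecidableEq F] (ι : F →+* k)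
variable {V : Type v} [AddCommGroup V] [Module k V] (ρ : Representation k (SpecialLinearGroup (Fin 2) F) V)

/-- highest weight vectors -/
structure Hw (c : ℕ) (E : V) : Prop where
  u : ∀ t, ρ (u t) E = E
  h : ∀ a : Fˣ, ρ (h a) E = ι a ^ c • E

/-- the spanning vectors -/
def xm (E : V) (m : ℕ) : V := Dm ι ρ m (ρ w E)

/-- the radical -/
def Mr (c : ℕ) (E : V) : Submodule k V := Submodule.span k
  {y | (∃ m, 1 ≤ m ∧ m ≤ Fintype.card F - 1 ∧ (c.choose m : k) = 0 ∧ y = xm ι ρ E m) ∨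
    y = ρ w (xm ι ρ E (Fintype.card F - 1))}

variable {ι ρ} {c : ℕ} {E : V}

theorem D_fix (hu : ∀ t, ρ (u t) E = E) {m : ℕ} (hm : 1 ≤ m) : Dm ι ρ m E = 0 := by
  have hq := one_lt (F := F)
  rw [Dm_apply]
  simp only [hu]
  rw [← Finset.sum_smul, psum ι (by omega), if_neg (by omega), zero_smul, neg_zero]

theorem Hw.ww (hE : Hw ι ρ c E) : ρ w (ρ w E) = (-1 : k) ^ c • E := by
  rw [H943.SL2Mod.ww, hE.h, Units.val_neg, Units.val_one, map_neg, map_one]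

theorem Hw.hw (hE : Hw ι ρ c E) (a : Fˣ) : ρ (H943.SL2Rel.h a) (ρ w E) = (ι a)⁻¹ ^ c • ρ w E := by
  rw [apply_mul, h_w, ← apply_mul, hE.h, map_smul, Units.val_inv_eq_inv_val, map_inv₀]

/-- **the action of `w`** -/
theorem Hw.w_x (hE : Hw ι ρ c E) {m m' : ℕ} (hm : m ≤ Fintype.card F - 1) (hm' : m' ≤ Fintype.card F - 1)
    (h : m + m' = c ∨ m + m' = c + (Fintype.card F - 1)) :
    ρ w (xm ι ρ E m) = (-1 : k) ^ m • (xm ι ρ E m' + (0 : k) ^ (Fintype.card F - 1 - m') • ρ w E) -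
      (0 : k) ^ (Fintype.card F - 1 - m) • ρ w (ρ w E) := by
  have h1 : ∀ s : F, ι (-s⁻¹) ^ (Fintype.card F - 1 - m) • ρ w (ρ (H943.SL2Rel.u (-s⁻¹)) (ρ w E)) =
      (-1 : k) ^ m • ι s ^ (Fintype.card F - 1 - m') • ρ (H943.SL2Rel.u s) (ρ w E) + if s = 0 then
        (0 : k) ^ (Fintype.card F - 1 - m) • ρ w (ρ w E) - (-1 : k) ^ m • (0 : k) ^ (Fintype.card F - 1 - m') • ρ w E
        else 0 := by
    intro s
    by_cases hs : s = 0
    · rw [if_pos hs, hs, _root_.inv_zero, neg_zero, map_zero, u_zero, map_one, Module.End.one_apply, add_sub_cancel]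
    have h2 : -s⁻¹ ≠ 0 := neg_ne_zero.2 (inv_ne_zero hs)
    have h3 : -(-s⁻¹)⁻¹ = s := by rw [inv_neg, inv_inv, neg_neg]
    have h4 : ((mi (-s⁻¹) h2 : Fˣ) : F) = s := h3
    have h5 : ι s ≠ 0 := (map_ne_zero ι).2 hs
    rw [if_neg hs, add_zero, apply_mul3, w_u_w _ h2, h3, ← apply_mul, hE.u, ← apply_mul3, hE.hw, h4, map_smul, smul_smul,
      smul_smul]
    congr 1
    have h6 : ι s ^ (Fintype.card F - 1 - m') * (ι s ^ (Fintype.card F - 1 - m) * ι s ^ c) = 1 := by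
      rw [← pow_add, ← pow_add]
      rcases h with h | h
      · rw [show Fintype.card F - 1 - m' + (Fintype.card F - 1 - m + c) = (Fintype.card F - 1) * 2 by omega, pow_mul,
          powQ ι hs, one_pow]
      · rw [show Fintype.card F - 1 - m' + (Fintype.card F - 1 - m + c) = Fintype.card F - 1 by omega, powQ ι hs]
    have h7 : (-1 : k) ^ (Fintype.card F - 1 - m) = (-1) ^ m := by
      have h8 : (-1 : k) ^ (Fintype.card F - 1 - m) * (-1) ^ m = 1 := by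
        rw [← pow_add, Nat.sub_add_cancel hm, neg_one_pow_Q ι]
      rw [eq_inv_of_mul_eq_one_left h8, ← inv_pow, inv_neg_one]
    rw [eq_inv_of_mul_eq_one_left h6, map_neg, map_inv₀, neg_pow, h7, mul_inv, inv_pow, inv_pow, mul_assoc]
  rw [xm, xm, Dm_apply, Dm_apply, map_neg, map_sum, ← Equiv.sum_comp ((Equiv.inv F).trans (Equiv.neg F))]
  simp only [map_smul, Equiv.trans_apply, Equiv.inv_apply, Equiv.neg_apply]
  rw [Finset.sum_congr rfl fun s _ => h1 s, Finset.sum_add_distrib, Finset.sum_ite_eq', if_pos (Finset.mem_univ _),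
    ← Finset.smul_sum, smul_add, smul_neg]
  abel

theorem Hw.w_x' (hE : Hw ι ρ c E) {m m' : ℕ} (hm : m < Fintype.card F - 1) (hm' : m' < Fintype.card F - 1)
    (h : m + m' = c ∨ m + m' = c + (Fintype.card F - 1)) : ρ w (xm ι ρ E m) = (-1 : k) ^ m • xm ι ρ E m' := by
  rw [hE.w_x hm.le hm'.le h, zero_pow (by omega), zero_pow (by omega), zero_smul, zero_smul, add_zero, sub_zero]

theorem Hw.w_Q (hE : Hw ι ρ c E) (hc : c < Fintype.card F - 1) :
    ρ w (xm ι ρ E (Fintype.card F - 1)) = xm ι ρ E c - (-1 : k) ^ c • E := by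
  rw [hE.w_x le_rfl hc.le (Or.inr (add_comm _ _)), zero_pow (by omega), zero_smul, add_zero, neg_one_pow_Q ι, one_smul,
    Nat.sub_self, pow_zero, one_smul, hE.ww]

theorem Hw.h_x (hE : Hw ι ρ c E) {m : ℕ} (hm : m ≤ Fintype.card F - 1) (a : Fˣ) :
    ρ (H943.SL2Rel.h a) (xm ι ρ E m) = (ι a ^ (2 * m) * (ι a)⁻¹ ^ c) • xm ι ρ E m := by
  rw [xm, h_Dm ι ρ hm, hE.hw, map_smul, smul_smul]

theorem xm_mem {m : ℕ} (h1 : 1 ≤ m) (h2 : m ≤ Fintype.card F - 1) (h3 : (c.choose m : k) = 0) :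
    xm ι ρ E m ∈ Mr ι ρ c E := Submodule.subset_span (Or.inl ⟨m, h1, h2, h3, rfl⟩)

theorem wx_mem : ρ w (xm ι ρ E (Fintype.card F - 1)) ∈ Mr ι ρ c E := Submodule.subset_span (Or.inr rfl)

theorem Mr_le {T : Submodule k V} (h : ∀ m, 1 ≤ m → m ≤ Fintype.card F - 1 → (c.choose m : k) = 0 → xm ι ρ E m ∈ T)
    (h' : ρ w (xm ι ρ E (Fintype.card F - 1)) ∈ T) : Mr ι ρ c E ≤ T := by
  refine Submodule.span_le.2 ?_
  rintro _ (⟨m, h1, h2, h3, rfl⟩ | rfl)
  · exact h m h1 h2 h3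
  · exact h'

theorem Mr_map {V' : Type*} [AddCommGroup V'] [Module k V'] {ρ' : Representation k (SpecialLinearGroup (Fin 2) F) V'}
    (f : V →ₗ[k] V') (hf : ∀ g x, f (ρ g x) = ρ' g (f x)) : (Mr ι ρ c E).map f = Mr ι ρ' c (f E) := by
  have h1 : ∀ m, f (xm ι ρ E m) = xm ι ρ' (f E) m := fun m => by rw [xm, Dm_comm ι ρ ρ' f hf, hf, xm]
  refine le_antisymm (Submodule.map_le_iff_le_comap.2 (Mr_le (fun m h2 h3 h4 => ?_) ?_)) (Mr_le (fun m h2 h3 h4 => ?_) ?_)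
  · rw [Submodule.mem_comap, h1]
    exact xm_mem h2 h3 h4
  · rw [Submodule.mem_comap, hf, h1]
    exact wx_mem
  · exact ⟨_, xm_mem h2 h3 h4, h1 m⟩
  · exact ⟨_, wx_mem, by rw [hf, h1]⟩

variable (p : ℕ) [Fact p.Prime] [CharP k p] [CharP F p] {a : ℕ} (hF : Fintype.card F = p ^ a)
include hF

theorem D_x {m m' : ℕ} (h1 : 1 ≤ m) (h2 : m < m') (h3 : m' ≤ Fintype.card F - 1) (y : V) :
    Dm ι ρ (m' - m) (Dm ι ρ m y) = (m'.choose m : k) • Dm ι ρ m' y := by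
  rw [Dm_mul' ι ρ p hF (by omega) h1 (by omega), Nat.sub_add_cancel h2.le, Nat.choose_symm h2.le]

theorem D_mem {T : Submodule k V} {m n : ℕ} (h1 : 1 ≤ m) (h2 : m ≤ Fintype.card F - 1) (h3 : 1 ≤ n)
    (h4 : n ≤ Fintype.card F - 1) {y : V}
    (h : m + n ≤ Fintype.card F - 1 → ((m + n).choose m : k) ≠ 0 → Dm ι ρ (m + n) y ∈ T) : Dm ι ρ n (Dm ι ρ m y) ∈ T := by
  by_cases h5 : m + n ≤ Fintype.card F - 1
  · have h6 := D_x (ι := ι) (ρ := ρ) p hF h1 (m' := m + n) (by omega) h5 y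
    rw [Nat.add_sub_cancel_left] at h6
    rw [h6]
    by_cases h7 : ((m + n).choose m : k) = 0
    · rw [h7, zero_smul]
      exact zero_mem _
    · exact T.smul_mem _ (h h5 h7)
  · rw [Dm_mul_zero ι ρ h3 h1 h4 h2 (by omega)]
    exact zero_mem _

omit hF in
include p in
theorem u_mem {T : Submodule k V} {y : V} (h : ∀ n, 1 ≤ n → n ≤ Fintype.card F - 1 → Dm ι ρ n y ∈ T) (t : F) :
    ρ (u t) y - y ∈ T := by
  rw [u_eq ι ρ p, add_sub_cancel_left]
  exact sum_mem fun n hn => T.smul_mem _ (h n (Finset.mem_Icc.1 hn).1 (Finset.mem_Icc.1 hn).2)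

/-- **the radical is invariant** -/
theorem Hw.Mr_inv (hE : Hw ι ρ c E) (h0 : 1 ≤ c) (hc : c < Fintype.card F - 1) : ∀ g, ∀ y ∈ Mr ι ρ c E, ρ g y ∈ Mr ι ρ c E := by
  have hz : ∀ {m}, c < m → (c.choose m : k) = 0 := fun h => by rw [Nat.choose_eq_zero_of_lt h, Nat.cast_zero]
  refine induct (P := fun g => ∀ y ∈ Mr ι ρ c E, ρ g y ∈ Mr ι ρ c E) (fun t => ?_) (fun z => ?_) ?_
    fun x y hx hy v hv => by rw [← apply_mul]; exact hx _ (hy v hv)
  · have h1 : ∀ y ∈ Mr ι ρ c E, (∀ n, 1 ≤ n → n ≤ Fintype.card F - 1 → Dm ι ρ n y ∈ Mr ι ρ c E) →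
        y ∈ (Mr ι ρ c E).comap (ρ (H943.SL2Rel.u t)) := fun y hy h => by
      have h2 := add_mem (u_mem p h t) hy
      rwa [sub_add_cancel] at h2
    refine Mr_le (T := (Mr ι ρ c E).comap (ρ (H943.SL2Rel.u t))) (fun m h2 h3 h4 => h1 _ (xm_mem h2 h3 h4) fun n h5 h6 =>
      D_mem p hF h2 h3 h5 h6 fun h7 h8 => xm_mem (by omega) h7 ?_) (h1 _ wx_mem fun n h5 h6 => ?_)
    · by_cases h9 : c < m + n
      · exact hz h9
      have h10 := congrArg (Nat.cast : ℕ → k) (Nat.choose_mul (n := c) (k := m + n) (s := m) (Nat.le_add_right _ _))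
      rw [Nat.cast_mul, Nat.cast_mul, h4, zero_mul] at h10
      exact (mul_eq_zero.1 h10).resolve_right h8
    · rw [hE.w_Q hc, map_sub, map_smul, D_fix hE.u h5, smul_zero, sub_zero]
      exact D_mem p hF h0 hc.le h5 h6 fun h7 _ => xm_mem (by omega) h7 (hz (by omega))
  · refine Mr_le (T := (Mr ι ρ c E).comap (ρ (H943.SL2Rel.h z))) (fun m h2 h3 h4 => ?_) ?_
    · rw [Submodule.mem_comap, hE.h_x h3]
      exact Submodule.smul_mem _ _ (xm_mem h2 h3 h4)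
    · rw [Submodule.mem_comap, apply_mul, h_w, ← apply_mul, hE.h_x le_rfl, map_smul]
      exact Submodule.smul_mem _ _ wx_mem
  · refine Mr_le (T := (Mr ι ρ c E).comap (ρ w)) (fun m h2 h3 h4 => ?_) ?_
    · rw [Submodule.mem_comap]
      rcases h3.eq_or_lt with rfl | h3
      · exact wx_mem
      rcases lt_trichotomy m c with h5 | rfl | h5
      · rw [hE.w_x' h3 (m' := c - m) (by omega) (by omega)]
        exact Submodule.smul_mem _ _ (xm_mem (by omega) (by omega) (by rw [Nat.choose_symm h5.le, h4]))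
      · rw [Nat.choose_self, Nat.cast_one] at h4
        exact absurd h4 one_ne_zero
      · rw [hE.w_x' h3 (m' := c + (Fintype.card F - 1) - m) (by omega) (by omega)]
        exact Submodule.smul_mem _ _ (xm_mem (by omega) (by omega) (hz (by omega)))
    · rw [Submodule.mem_comap, H943.SL2Mod.ww, hE.h_x le_rfl]
      exact Submodule.smul_mem _ _ (xm_mem (by omega) le_rfl (hz hc))

/-- **the radical is isotropic** -/
theorem Hw.Mr_orth (hE : Hw ι ρ c E) (h0 : 1 ≤ c) (hc : c < Fintype.card F - 1) {B : V →ₗ[k] V →ₗ[k] k} (D : Dul ρ ρ B)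
    (hEE : B E E = 0) : Mr ι ρ c E ≤ orth B (Mr ι ρ c E) := by
  have h1 := D.orth_inv (hE.Mr_inv p hF h0 hc)
  have hq := one_lt (F := F)
  have h2 : ∀ m, 1 ≤ m → ∀ y, B (Dm ι ρ m y) E = 0 := fun m hm y => by
    have h3 : ∀ t, B (ρ (H943.SL2Rel.u t) y) E = B y E := fun t => by rw [← D.inv (H943.SL2Rel.u t) y E, hE.u]
    rw [Dm_apply, map_neg, map_sum, LinearMap.neg_apply, LinearMap.sum_apply]
    simp only [map_smul, LinearMap.smul_apply, h3]
    rw [← Finset.sum_smul, psum ι (by omega), if_neg (by omega), zero_smul, neg_zero]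
  have h3 : E ∈ orth B (Mr ι ρ c E) := Mr_le (T := LinearMap.ker (B.flip E)) (fun m h4 _ _ => h2 m h4 _) (by
    show B _ E = 0
    rw [hE.w_Q hc, map_sub, map_smul, LinearMap.sub_apply, LinearMap.smul_apply, hEE, smul_zero, sub_zero]
    exact h2 c h0 _)
  exact Mr_le (fun m _ _ _ => Dm_mem_inv ι ρ h1 m (h1 _ _ h3)) (h1 _ _ (Dm_mem_inv ι ρ h1 _ (h1 _ _ h3)))

/-- simple submodules from highest weight vectors -/
theorem Hw.soc {b : ℕ} {z : V} (hz : Hw ι ρ b z) (h0 : z ≠ 0) (hb : b < Fintype.card F - 1)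
    (hQ : Dm ι ρ (Fintype.card F - 1) (ρ w z) = 0)
    (hD : ∀ i < a, b / p ^ i % p + 1 < p → Dm ι ρ (en p b i) (ρ w z) = 0) {M : Submodule k V}
    (hM : ∀ g, ∀ y ∈ M, ρ g y ∈ M) (hzM : z ∈ M) :
    ∃ (Y : Submodule k V) (hY : ∀ g, ∀ y ∈ Y, ρ g y ∈ Y), Y ≤ M ∧ IsV ι p (subRep ρ Y hY) b := by
  have hσ : IsV ι p (RB ι p hb.le) b := ⟨hb.le, LinearEquiv.refl _ _, fun _ _ => rfl⟩
  obtain ⟨m, hm0, hmu, -⟩ := hσ.hw
  obtain ⟨f, hf, hfm⟩ := gen_hw ι p ρ hF hσ hm0 hmu hz.u hz.h (by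
    rw [Dm_apply, neg_eq_zero] at hQ
    simp only [Nat.sub_self, pow_zero, one_smul] at hQ
    rw [SS_apply, hQ, cb, if_pos hb, zero_smul]) hD
  have hirr := hσ.irr
  have hker : LinearMap.ker f = ⊥ := by
    refine (hirr.2 (LinearMap.ker f) fun g x hx => ?_).resolve_right fun h => h0 ?_
    · rw [LinearMap.mem_ker] at hx ⊢
      rw [hf, hx, map_zero]
    · rw [← hfm, LinearMap.ker_eq_top.1 h]; rfl
  refine ⟨LinearMap.range f, ?_, ?_, IsV.iso ι p (LinearEquiv.ofInjective f (LinearMap.ker_eq_bot.1 hker))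
    (fun g x => Subtype.ext (hf g x)) hσ⟩
  · rintro g _ ⟨x, rfl⟩
    exact ⟨_, hf g x⟩
  · rcases hirr.2 (M.comap f) (fun g x hx => by rw [Submodule.mem_comap, hf]; exact hM g _ hx) with h | h
    · exact absurd (h ▸ (show m ∈ M.comap f by rw [Submodule.mem_comap, hfm]; exact hzM) : m ∈ ⊥) hm0
    · rintro _ ⟨x, rfl⟩
      exact (h ▸ Submodule.mem_top : x ∈ M.comap f)

omit hF in
/-- the operators which kill a simple module -/
theorem D_kill {Y : Submodule k V} {hY : ∀ g, ∀ y ∈ Y, ρ g y ∈ Y} {b : ℕ} (h : IsV ι p (subRep ρ Y hY) b) {n : ℕ}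
    (h1 : 1 ≤ n) (h2 : n ≤ Fintype.card F - 1) (h3 : (b.choose n : k) = 0) {y : V} (hy : y ∈ Y) : Dm ι ρ n y = 0 := by
  obtain ⟨v, hv⟩ := h.bas
  have h4 : Dm ι (subRep ρ Y hY) n = 0 := Alm.ext_bas hv fun m hm => by
    rw [Alm.Dm_bas p h.1 hv hm h1 h2, LinearMap.zero_apply]
    by_cases h5 : ((b - m).choose n : k) = 0
    · rw [h5, zero_smul]
    have h7 := congrArg (Nat.cast : ℕ → k) (Nat.choose_mul (n := b) (k := m + n) (s := n) (Nat.le_add_left _ _))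
    rw [Nat.cast_mul, Nat.cast_mul, h3, zero_mul] at h7
    have h8 := congrArg (Nat.cast : ℕ → k) (Nat.choose_mul (n := b) (k := m + n) (s := m) (Nat.le_add_right _ _))
    rw [Nat.cast_mul, Nat.cast_mul, Nat.choose_symm_add, h7, Nat.add_sub_cancel_left] at h8
    exact absurd h8.symm (mul_ne_zero (mem_Bf.1 hm).2 h5)
  have h5 := Dm_comm ι (subRep ρ Y hY) ρ Y.subtype (fun _ _ => rfl) n ⟨y, hy⟩
  rw [h4] at h5
  exact h5.symm

end Cfsg.Agent.E7P.Sp
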