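import Cfsg.Agent.E7P.Sp.Mod

/-!
# S5932, task SPLIT: the layers of the radical (helper37)

* `Dat p a c b1 J1 b2 J2` : the combinatorial data of the layers (decidable);
* `Hw.str` : a simple submodule of the radical; `Hw.cf_Mr` : its composition factors.
-/

set_option autoImplicit false
set_option linter.unusedSectionVars false

namespace Cfsg.Agent.E7P.Sp

open Matrix Cfsg.Agent.H943.SL2Rel Cfsg.Agent.H943.SL2Mod Cfsg.Agent.H943.RepAdd Cfsg.Agent.R2.H28.SL2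

universe u v w

/-- the order of the digits -/
def dle (p a m n : ℕ) : Prop := ∀ i < a, m / p ^ i % p ≤ n / p ^ i % p

instance decDle (p a m n : ℕ) : Decidable (dle p a m n) := by unfold dle; infer_instance

/-- the vectors which vanish -/
def Kill (p a c : ℕ) (T : List ℕ) (m : ℕ) : Prop := (dle p a c m ∧ m ≠ c) ∨ ∃ b ∈ T, dle p a b m

instance decKill (p a c : ℕ) (T : List ℕ) (m : ℕ) : Decidable (Kill p a c T m) := by unfold Kill; infer_instance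

/-- a layer -/
def Lay (p a c : ℕ) (T : List ℕ) (b J : ℕ) : Prop :=
  1 ≤ b ∧ b + J < p ^ a - 1 ∧ (b + (b + J) = c ∨ b + (b + J) = c + (p ^ a - 1)) ∧ ¬ dle p a (b + J) c ∧
  (∀ m < p ^ a, b + J < m → dle p a (b + J) m → Kill p a c T m) ∧
  ∀ i < a, J / p ^ i % p + 1 < p → b + en p J i < p ^ a → dle p a b (b + en p J i) → Kill p a c T (b + en p J i)

instance decLay (p a c : ℕ) (T : List ℕ) (b J : ℕ) : Decidable (Lay p a c T b J) := by unfold Lay; infer_instance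

/-- the layers -/
def Dat (p a c b1 J1 b2 J2 : ℕ) : Prop :=
  1 ≤ c ∧ c < p ^ a - 1 ∧ Lay p a c [b2] b1 J1 ∧ 1 ≤ b2 ∧
  (b2 = p ^ a - 1 ∨ (Lay p a c [] b2 J2 ∧ b1 < b2 + J2 ∧ dle p a b1 (b2 + J2) ∧ ¬ dle p a (b2 + J2 - b1) J2)) ∧
  (∀ m < p ^ a, ¬ dle p a m c → Kill p a c [b1, b2] m) ∧ ¬ dle p a b1 c ∧ dle p a b1 (p ^ a - 1) ∧
  ¬ dle p a (p ^ a - 1 - b1) (p ^ a - 1 - c) ∧
  ∀ i < a, (p ^ a - 1 - c) / p ^ i % p + 1 < p → c + en p (p ^ a - 1 - c) i < p ^ a →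
    ¬ dle p a c (c + en p (p ^ a - 1 - c) i)

instance decDat (p a c b1 J1 b2 J2 : ℕ) : Decidable (Dat p a c b1 J1 b2 J2) := by unfold Dat; infer_instance

variable {k : Type u} [Field k] [DecidableEq k] {F : Type w} [Field F] [Fintype F] [DecidableEq F] {ι : F →+* k}
variable (p : ℕ) [Fact p.Prime] [CharP k p] [CharP F p] {a : ℕ}

theorem dle_iff {m n : ℕ} (hm : m < p ^ a) : dle p a m n ↔ (n.choose m : k) ≠ 0 := by
  rw [choose_ne_iff p]
  refine ⟨fun h i => ?_, fun h i _ => h i⟩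
  by_cases hi : i < a
  · exact h i hi
  · rw [dg_zero_of_le (Fact.out : p.Prime).pos hm (not_lt.1 hi)]
    exact Nat.zero_le _

theorem not_dle {m n : ℕ} (hm : m < p ^ a) : ¬ dle p a m n ↔ (n.choose m : k) = 0 := by rw [dle_iff (k := k) p hm, not_not]

variable (hF : Fintype.card F = p ^ a)
include hF

section
variable {V : Type v} [AddCommGroup V] [Module k V] {ρ : Representation k (SpecialLinearGroup (Fin 2) F) V} {c : ℕ} {E : V}

theorem D_up {m m' : ℕ} (h1 : 1 ≤ m) (h2 : m < m') (h3 : m' < p ^ a) (h4 : dle p a m m') {y : V}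
    (h : Dm ι ρ (m' - m) (Dm ι ρ m y) = 0) : Dm ι ρ m' y = 0 := by
  rw [D_x p hF h1 h2 (by omega)] at h
  exact (smul_eq_zero.1 h).resolve_left ((dle_iff p (by omega)).1 h4)

theorem Hw.kill (hE : Hw ι ρ c E) (h0 : 1 ≤ c) (hc : c < p ^ a - 1) (hQ : xm ι ρ E (p ^ a - 1) = 0) {T : List ℕ}
    (hT : ∀ b ∈ T, 1 ≤ b ∧ b < p ^ a ∧ xm ι ρ E b = 0) {m : ℕ} (hm : m < p ^ a) (h : Kill p a c T m) : xm ι ρ E m = 0 := by
  have hle : ∀ {b}, b < p ^ a → dle p a b m → b ≤ m := fun hb h => by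
    by_contra h1
    exact (dle_iff (k := k) p hb).1 h (by rw [Nat.choose_eq_zero_of_lt (not_le.1 h1), Nat.cast_zero])
  rcases h with ⟨h1, h2⟩ | ⟨b, hb, h1⟩
  · have h3 := hle (by omega) h1
    have h4 := hE.w_Q (by rw [hF]; exact hc)
    rw [hF, hQ, map_zero, eq_comm, sub_eq_zero] at h4
    refine D_up p hF h0 (by omega) hm h1 ?_
    rw [show Dm ι ρ c (ρ w E) = _ from h4, map_smul, D_fix hE.u (by omega), smul_zero]
  · obtain ⟨h2, h3, h4⟩ := hT b hb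
    rcases (hle h3 h1).eq_or_lt with rfl | h5
    · exact h4
    · exact D_up p hF h2 h5 hm h1 (by rw [show Dm ι ρ b (ρ w E) = 0 from h4, map_zero])

theorem Hw.hw_x (hE : Hw ι ρ c E) {m J : ℕ} (h1 : 1 ≤ m) (h2 : m < p ^ a) (hJ : 2 * m = c + J ∨ 2 * m = c + J + (p ^ a - 1))
    (h : ∀ m' < p ^ a, m < m' → dle p a m m' → xm ι ρ E m' = 0) : Hw ι ρ J (xm ι ρ E m) where
  u t := sub_eq_zero.1 (u_mem (T := ⊥) p (fun n h3 h4 => D_mem p hF h1 (by omega) h3 h4 fun h5 h6 =>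
    h _ (by omega) (by omega) ((dle_iff p h2).2 h6)) t)
  h z := by
    have h3 : ι z ≠ 0 := (map_ne_zero ι).2 z.ne_zero
    rw [hE.h_x (by omega), inv_pow]
    congr 1
    rw [mul_inv_eq_iff_eq_mul₀ (pow_ne_zero _ h3), ← pow_add]
    rcases hJ with hJ | hJ
    · rw [hJ, add_comm]
    · rw [hJ, pow_add, ← hF, powQ ι z.ne_zero, mul_one, add_comm]

theorem Hw.lay (hE : Hw ι ρ c E) (h0 : 1 ≤ c) (hc : c < p ^ a - 1) (hQ : xm ι ρ E (p ^ a - 1) = 0) {T : List ℕ}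
    (hT : ∀ b ∈ T, 1 ≤ b ∧ b < p ^ a ∧ xm ι ρ E b = 0) {b J : ℕ} (hL : Lay p a c T b J) (hb : xm ι ρ E b ≠ 0) :
    xm ι ρ E (b + J) ≠ 0 ∧ ∃ (Y : Submodule k V) (hY : ∀ g, ∀ y ∈ Y, ρ g y ∈ Y), Y ≤ Mr ι ρ c E ∧ IsV ι p (subRep ρ Y hY) J := by
  obtain ⟨h1, h2, h3, h4, h5, h6⟩ := hL
  have hp : 0 < p := (Fact.out : p.Prime).pos
  have h7 := hE.w_x' (m := b + J) (m' := b) (by omega) (by omega) (by omega)
  have h8 : xm ι ρ E (b + J) ≠ 0 := fun h => by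
    rw [h, map_zero, eq_comm, smul_eq_zero] at h7
    exact h7.elim (pow_ne_zero _ (neg_ne_zero.2 one_ne_zero)) hb
  refine ⟨h8, Hw.soc p hF (hE.hw_x p hF (by omega) (by omega) (by omega) fun m h9 h10 h11 =>
    hE.kill p hF h0 hc hQ hT h9 (h5 m h9 h10 h11)) h8 (by omega) ?_ (fun i hi h9 => ?_)
    (hE.Mr_inv p hF h0 (by omega)) (xm_mem (by omega) (by omega) ((not_dle p (by omega)).1 h4))⟩
  · rw [h7, map_smul, xm, Dm_mul_zero ι ρ (by omega) h1 le_rfl (by omega) (by omega), smul_zero]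
  · have h10 := en_pos (b := J) (i := i) hp
    have h11 := en_le hp hi h9
    rw [h7, map_smul]
    exact smul_eq_zero_of_right _ (D_mem (T := ⊥) p hF h1 (by omega) h10 (by omega) fun h12 h13 =>
      hE.kill p hF h0 hc hQ hT (by omega) (h6 i hi h9 (by omega) ((dle_iff p (by omega)).2 h13)))

variable {b1 J1 b2 J2 : ℕ}

/-- **a simple submodule of the radical** -/
theorem Hw.str (hE : Hw ι ρ c E) (hD : Dat p a c b1 J1 b2 J2) : Mr ι ρ c E = ⊥ ∨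
    ∃ (Y : Submodule k V) (hY : ∀ g, ∀ y ∈ Y, ρ g y ∈ Y) (b : ℕ), Y ≤ Mr ι ρ c E ∧ IsV ι p (subRep ρ Y hY) b ∧
      (b = J1 ∨ ((b = J2 ∨ b = p ^ a - 1 - c) ∧ Y ≠ Mr ι ρ c E)) := by
  obtain ⟨h0, hc, hL1, h1, hL2, hcov, h2, h3, h4, h5⟩ := hD
  have hp : 0 < p := (Fact.out : p.Prime).pos
  have h6 := hL1.1
  have h7 := hL1.2.1
  have hb1 : xm ι ρ E b1 ∈ Mr ι ρ c E := xm_mem h6 (by omega) ((not_dle p (by omega)).1 h2)
  have hne : ∀ {Y : Submodule k V} {hY : ∀ g, ∀ y ∈ Y, ρ g y ∈ Y} {b m : ℕ}, IsV ι p (subRep ρ Y hY) b → b1 < m → m < p ^ a →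
      dle p a b1 m → ¬ dle p a (m - b1) b → xm ι ρ E m ≠ 0 → Y ≠ Mr ι ρ c E := by
    intro Y hY b m hV h8 h9 h10 h11 h12 h13
    exact h12 (D_up p hF h6 h8 h9 h10 (D_kill p hV (by omega) (by omega) ((not_dle p (by omega)).1 h11) (h13 ▸ hb1)))
  by_cases hQ : xm ι ρ E (p ^ a - 1) = 0
  swap
  · have h8 := hE.w_Q (by rw [hF]; exact hc)
    rw [hF] at h8
    have h9 : ∀ n, 1 ≤ n → Dm ι ρ n (ρ w (xm ι ρ E (p ^ a - 1))) = Dm ι ρ n (xm ι ρ E c) := fun n hn => by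
      rw [h8, map_sub, map_smul, D_fix hE.u hn, smul_zero, sub_zero]
    obtain ⟨Y, hY, h10, h11⟩ := Hw.soc p hF (hE.hw_x p hF (m := p ^ a - 1) (J := p ^ a - 1 - c) (by omega) (by omega)
      (by omega) fun m h10 h11 => by omega) hQ (by omega) (by
        rw [h9 _ (by omega), xm, Dm_mul_zero ι ρ (by omega) h0 le_rfl (by omega) (by omega)]) (fun i hi h10 => by
        have h11 := en_pos (b := p ^ a - 1 - c) (i := i) hp
        have h12 := en_le hp hi h10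
        rw [h9 _ h11]
        exact D_mem (T := ⊥) p hF h0 (by omega) h11 (by omega) fun h13 h14 =>
          absurd ((dle_iff p (by omega)).2 h14) (h5 i hi h10 (by omega)))
      (hE.Mr_inv p hF h0 (by omega)) (xm_mem (by omega) (by omega) (by rw [Nat.choose_eq_zero_of_lt hc, Nat.cast_zero]))
    exact Or.inr ⟨Y, hY, _, h10, h11, Or.inr ⟨Or.inr rfl, hne h11 (by omega) (by omega) h3 h4 hQ⟩⟩
  by_cases hb2 : xm ι ρ E b2 = 0
  swap
  · rcases hL2 with rfl | ⟨hL2, h8, h9, h10⟩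
    · exact absurd hQ hb2
    obtain ⟨h11, Y, hY, h12, h13⟩ := hE.lay p hF h0 hc hQ (by simp) hL2 hb2
    have h14 := hL2.2.1
    exact Or.inr ⟨Y, hY, _, h12, h13, Or.inr ⟨Or.inl rfl, hne h13 h8 (by omega) h9 h10 h11⟩⟩
  have h8 : b2 < p ^ a := by
    rcases hL2 with rfl | ⟨hL2, -⟩
    · omega
    · have := hL2.2.1
      omega
  by_cases hb1' : xm ι ρ E b1 = 0
  swap
  · obtain ⟨-, Y, hY, h12, h13⟩ := hE.lay p hF h0 hc hQ (by simpa using ⟨h1, h8, hb2⟩) hL1 hb1'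
    exact Or.inr ⟨Y, hY, _, h12, h13, Or.inl rfl⟩
  refine Or.inl (eq_bot_iff.2 (Mr_le (fun m h9 h10 h11 => ?_) ?_))
  · exact hE.kill p hF h0 hc hQ (by simpa using ⟨⟨h6, by omega, hb1'⟩, h1, h8, hb2⟩) (by omega)
      (hcov m (by omega) ((not_dle p (by omega)).2 h11))
  · rw [hF, hQ, map_zero]
    exact zero_mem _

end

variable [IsAlgClosed k] {c b1 J1 b2 J2 : ℕ}

theorem cf_Mr_aux (hD : Dat p a c b1 J1 b2 J2) (n : ℕ) : ∀ (V : Type v) [AddCommGroup V] [Module k V] [FiniteDimensional k V]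
    (ρ : Representation k (SpecialLinearGroup (Fin 2) F) V) (E : V) (_ : Hw ι ρ c E)
    (hM : ∀ g, ∀ y ∈ Mr ι ρ c E, ρ g y ∈ Mr ι ρ c E), Module.finrank k V ≤ n →
    (∀ b ∈ cf (Sy.{u, v, w} ι p) (subRep ρ _ hM), b = J1 ∨ b = J2 ∨ b = p ^ a - 1 - c) ∧
      (Mr ι ρ c E ≠ ⊥ → J1 ∈ cf (Sy.{u, v, w} ι p) (subRep ρ _ hM)) := by
  induction n using Nat.strong_induction_on with
  | _ n ih =>
    intro V _ _ _ ρ E hE hM hn
    rcases hE.str p hF hD with h1 | ⟨Y, hY, b, h1, h2, h3⟩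
    · have : Subsingleton (Mr ι ρ c E) := by rw [h1]; infer_instance
      rw [cf_zero]
      exact ⟨fun b hb => absurd hb (Multiset.notMem_zero _), fun h => absurd h1 h⟩
    have hE' : Hw ι (quotRep ρ Y hY) c (Y.mkQ E) :=
      ⟨fun t => by rw [quotRep_mk, hE.u], fun z => by rw [quotRep_mk, hE.h, map_smul]⟩
    have h4 := Mr_map (ι := ι) (c := c) (E := E) Y.mkQ fun g x => (quotRep_mk ρ Y hY g x).symm
    have h5 : Module.finrank k (V ⧸ Y) < n := by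
      have := h2.irr.1
      have h5 := Module.finrank_pos (R := k) (M := Y)
      have h6 := Y.finrank_quotient_add_finrank
      omega
    obtain ⟨h6, h7⟩ := ih _ h5 (V ⧸ Y) (quotRep ρ Y hY) _ hE' (h4 ▸ map_inv' hY hM) le_rfl
    rw [cf_step _ hY hM h1, cf_irr (Sy.{u, v, w} ι p) h2, cf_congr _ _ (h4 ▸ map_inv' hY hM) h4]
    refine ⟨fun d hd => ?_, fun _ => ?_⟩
    · rcases Multiset.mem_add.1 hd with hd | hd
      · rw [Multiset.mem_singleton.1 hd]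
        exact h3.imp_right And.left
      · exact h6 d hd
    · rcases h3 with rfl | ⟨-, h3⟩
      · exact Multiset.mem_add.2 (Or.inl (Multiset.mem_singleton_self _))
      · refine Multiset.mem_add.2 (Or.inr (h7 fun h8 => h3 (le_antisymm h1 ?_)))
        rw [← h4, ← LinearMap.le_ker_iff_map, Submodule.ker_mkQ] at h8
        exact h8

/-- **the composition factors of the radical** -/
theorem Hw.cf_Mr {V : Type v} [AddCommGroup V] [Module k V] [FiniteDimensional k V]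
    {ρ : Representation k (SpecialLinearGroup (Fin 2) F) V} {E : V} (hE : Hw ι ρ c E) (hD : Dat p a c b1 J1 b2 J2)
    (hM : ∀ g, ∀ y ∈ Mr ι ρ c E, ρ g y ∈ Mr ι ρ c E) :
    (∀ b ∈ cf (Sy.{u, v, w} ι p) (subRep ρ _ hM), b = J1 ∨ b = J2 ∨ b = p ^ a - 1 - c) ∧
      (Mr ι ρ c E ≠ ⊥ → J1 ∈ cf (Sy.{u, v, w} ι p) (subRep ρ _ hM)) :=
  cf_Mr_aux p hF hD _ V ρ E hE hM le_rfl

end Cfsg.Agent.E7P.Sp
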